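import Cfsg.Agent.H179.L16.Spec

/-!
# S5916: the strict pressure inequality (helper179)

`fix_of_pressure` : a module with an invariant nondegenerate form, with composition factors the trivial module
(multiplicity `m 0 > 0`) and the `V_{2^i}` with `∑ m (2 ^ i) ≤ m 0`, has a nonzero fixed vector.
-/

set_option autoImplicit false
set_option linter.unusedSectionVars false

namespace Cfsg.Agent.H179.L16

open Matrix Module Cfsg.Agent.H943.SL2Rel Cfsg.Agent.H943.RepAdd Cfsg.Agent.H943.SL2Mod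
open Cfsg.Agent.H179.SLC (charF hs_one fx mem_fx)
open Cfsg.Agent.H179.SLD (Bn IsMult exists_isMult exists_isMult_sub)

section Dual

variable {k G V : Type*} [Field k] [Group G] [AddCommGroup V] [Module k V] [FiniteDimensional k V]
  (ρ : Representation k G V)

theorem finrank_eig_dual (g : G) {μ : k} (hμ : μ ≠ 0) :
    finrank k (eig ρ.dual g μ) = finrank k (eig ρ g μ⁻¹) := by
  have h1 : eig ρ.dual g μ = LinearMap.ker (LinearMap.dualMap (ρ g⁻¹ - μ • (1 : Module.End k V))) := by
    ext f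
    rw [mem_eig, LinearMap.mem_ker]
    constructor
    · intro h
      ext v
      have h2 := LinearMap.congr_fun h v
      have h3 : f (ρ g⁻¹ v) = μ • f v := h2
      show f ((ρ g⁻¹ - μ • (1 : Module.End k V)) v) = 0
      rw [LinearMap.sub_apply, map_sub, h3, LinearMap.smul_apply, Module.End.one_apply, map_smul, sub_self]
    · intro h
      ext v
      have h2 := LinearMap.congr_fun h v
      have h3 : f ((ρ g⁻¹ - μ • (1 : Module.End k V)) v) = 0 := h2
      rw [LinearMap.sub_apply, map_sub, LinearMap.smul_apply, Module.End.one_apply, map_smul, sub_eq_zero] at h3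
      exact h3
  have h2 : eig ρ g μ⁻¹ = LinearMap.ker (ρ g⁻¹ - μ • (1 : Module.End k V)) := by
    ext v
    rw [mem_eig, LinearMap.mem_ker, LinearMap.sub_apply, LinearMap.smul_apply, Module.End.one_apply, sub_eq_zero]
    constructor
    · intro h
      have h3 : ρ g⁻¹ (ρ g v) = v := by
        rw [← Module.End.mul_apply, ← map_mul, inv_mul_cancel, map_one]; rfl
      rw [h, map_smul] at h3
      have h4 := congrArg (fun x => μ • x) h3
      simp only [smul_smul, mul_inv_cancel₀ hμ, one_smul] at h4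
      exact h4
    · intro h
      have h3 : ρ g (ρ g⁻¹ v) = v := by
        rw [← Module.End.mul_apply, ← map_mul, mul_inv_cancel, map_one]; rfl
      rw [h, map_smul] at h3
      have h4 := congrArg (fun x => μ⁻¹ • x) h3
      simp only [smul_smul, inv_mul_cancel₀ hμ, one_smul] at h4
      exact h4
  rw [h1, h2]
  have e1 := LinearMap.finrank_range_add_finrank_ker (LinearMap.dualMap (ρ g⁻¹ - μ • (1 : Module.End k V)))
  have e2 := LinearMap.finrank_range_add_finrank_ker (ρ g⁻¹ - μ • (1 : Module.End k V))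
  rw [LinearMap.finrank_range_dualMap_eq_finrank_range, Subspace.dual_finrank_eq] at e1
  omega

variable (B : V →ₗ[k] V →ₗ[k] k)

/-- the map of `V` onto the dual of a subspace -/
noncomputable def Phi (U : Submodule k V) : V →ₗ[k] Module.Dual k U := U.dualRestrict.comp B

theorem Phi_apply (U : Submodule k V) (v : V) (u : U) : Phi B U v u = B v u := rfl

theorem Phi_surjective (hB : ∀ x, (∀ z, B x z = 0) → x = 0) (U : Submodule k V) : Function.Surjective (Phi B U) := by
  have h1 : Function.Injective B := by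
    refine (injective_iff_map_eq_zero B).2 fun x hx => hB x fun z => ?_
    rw [hx]
    rfl
  have h2 : Function.Surjective B :=
    (LinearMap.injective_iff_surjective_of_finrank_eq_finrank (Subspace.dual_finrank_eq (K := k) (V := V)).symm).1 h1
  have h3 : Function.Surjective U.dualRestrict := Subspace.dualRestrict_surjective
  intro f
  obtain ⟨g, rfl⟩ := h3 f
  obtain ⟨v, rfl⟩ := h2 g
  exact ⟨v, rfl⟩

end Dual

section Main

variable {k : Type*} [Field k] [IsAlgClosed k] [CharP k 2] {F : Type*} [Field F] [Fintype F] [DecidableEq F] {ι : F →+* k}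
  {lam : Fˣ} {y : SpecialLinearGroup (Fin 2) F} {ζ : k}

universe v

/-- a fixed vector modulo a submodule without fixed vectors of `y` -/
theorem exists_fix_mod (D : Dat16 ι lam y ζ) {V : Type v} [AddCommGroup V] [Module k V] [FiniteDimensional k V]
    (ρ : Representation k (SpecialLinearGroup (Fin 2) F) V) (h0 : eig ρ y 1 ≠ ⊥) :
    ∃ (U : Submodule k V) (_ : ∀ g, ∀ x ∈ U, ρ g x ∈ U) (t : V), (∀ u ∈ U, ρ y u = u → u = 0) ∧ t ∉ U ∧
      ρ y t = t ∧ ∀ g, ρ g t - t ∈ U := by
  classical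
  have := charF ι
  obtain ⟨U, ⟨hU, hUy⟩, hmax⟩ := (wellFounded_gt (α := Submodule k V)).has_min
    {U : Submodule k V | (∀ g, ∀ x ∈ U, ρ g x ∈ U) ∧ ∀ u ∈ U, ρ y u = u → u = 0} ⟨⊥, fun g x hx => by
      rw [(Submodule.mem_bot k).1 hx, map_zero]
      exact Submodule.zero_mem _, fun u hu _ => (Submodule.mem_bot k).1 hu⟩
  have hne : U ≠ ⊤ := by
    intro h
    apply h0
    rw [eq_bot_iff]
    intro x hx
    rw [mem_eig, one_smul] at hx
    exact (Submodule.mem_bot k).2 (hUy x (by rw [h]; exact Submodule.mem_top) hx)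
  have hnt : Nontrivial (V ⧸ U) := Submodule.Quotient.nontrivial_iff.2 hne
  obtain ⟨W, hW, hW0, hmin⟩ := exists_irr_sub (quotRep ρ U hU)
  -- the preimage
  have hTi : ∀ g, ∀ x ∈ W.comap U.mkQ, ρ g x ∈ W.comap U.mkQ := by
    intro g x hx
    show U.mkQ (ρ g x) ∈ W
    rw [← quotRep_mk]
    exact hW g _ hx
  have hlt : U < W.comap U.mkQ := by
    refine lt_of_le_of_ne (fun u hu => ?_) fun h => hW0 ?_
    · show U.mkQ u ∈ W
      rw [Submodule.mkQ_apply, (Submodule.Quotient.mk_eq_zero U).2 hu]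
      exact W.zero_mem
    · rw [eq_bot_iff]
      intro w hw
      obtain ⟨x, rfl⟩ := U.mkQ_surjective w
      have hx : x ∈ W.comap U.mkQ := hw
      rw [← h] at hx
      rw [Submodule.mkQ_apply, (Submodule.Quotient.mk_eq_zero U).2 hx]
      exact Submodule.zero_mem _
  have h1 : ¬ ∀ u ∈ W.comap U.mkQ, ρ y u = u → u = 0 := fun h => hmax _ ⟨hTi, h⟩ hlt
  push Not at h1
  obtain ⟨t, ht, hyt, ht0⟩ := h1
  have htU : t ∉ U := fun h => ht0 (hUy t h hyt)
  refine ⟨U, hU, t, hUy, htU, hyt, ?_⟩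
  -- the irreducible module is trivial
  have hIW : Irr (subRep (quotRep ρ U hU) W hW) := by
    refine ⟨Submodule.nontrivial_iff_ne_bot.2 hW0, fun W' hW' => ?_⟩
    rcases hmin (W'.map W.subtype) (Submodule.map_subtype_le _ _) (by
      rintro g _ ⟨x, hx, rfl⟩
      exact ⟨_, hW' g x hx, rfl⟩) with h1 | h1
    · left
      rw [eq_bot_iff]
      intro x hx
      have h2 : (x : V ⧸ U) ∈ W'.map W.subtype := ⟨x, hx, rfl⟩
      rw [h1] at h2
      exact (Submodule.mem_bot k).2 (Subtype.ext ((Submodule.mem_bot k).1 h2))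
    · right
      rw [eq_top_iff]
      intro x _
      have h2 : (x : V ⧸ U) ∈ W'.map W.subtype := by rw [h1]; exact x.2
      obtain ⟨z, hz, e⟩ := h2
      rwa [← Subtype.ext (p := fun z => z ∈ W) e]
  obtain ⟨b, hb, φ, hφ⟩ := SLC.irr_iso ι 2 (subRep (quotRep ρ U hU) W hW) ι.injective hs_one hIW
  have hM := (SLD.isMult_rb ι D.card ι.injective hs_one hb).of_iso ι φ hφ
  have hS := isMult_spec D hM
  have hz := hS.zero
  let t' : W := ⟨U.mkQ t, ht⟩
  have ht'0 : t' ≠ 0 := by
    intro h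
    have h2 : U.mkQ t = 0 := congrArg Subtype.val h
    rw [Submodule.mkQ_apply, Submodule.Quotient.mk_eq_zero] at h2
    exact htU h2
  have ht'm : t' ∈ eig (subRep (quotRep ρ U hU) W hW) y 1 := by
    rw [mem_eig, one_smul]
    apply Subtype.ext
    show quotRep ρ U hU y (U.mkQ t) = U.mkQ t
    rw [quotRep_mk, hyt]
  have hpos : 0 < finrank k (eig (subRep (quotRep ρ U hU) W hW) y 1) := by
    have : Nontrivial (eig (subRep (quotRep ρ U hU) W hW) y 1) :=
      ⟨⟨t', ht'm⟩, 0, fun h => ht'0 (congrArg Subtype.val h)⟩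
    exact finrank_pos (R := k) (M := eig (subRep (quotRep ρ U hU) W hW) y 1)
  have hb0 : b = 0 := by
    by_contra hb0
    rw [Pi.single_eq_of_ne (Ne.symm hb0)] at hz
    omega
  subst hb0
  intro g
  have h3 : subRep (quotRep ρ U hU) W hW g t' = t' := by
    have h4 := hφ g (φ.symm t')
    rw [LinearEquiv.apply_symm_apply, SLC.rb_zero_triv ι hs_one g, Module.End.one_apply,
      LinearEquiv.apply_symm_apply] at h4
    exact h4.symm
  have h5 : U.mkQ (ρ g t) = U.mkQ t := congrArg Subtype.val h3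
  rw [← sub_eq_zero, ← map_sub, Submodule.mkQ_apply, Submodule.Quotient.mk_eq_zero] at h5
  exact h5

/-- the number of the factors `V_{2^i}` of a submodule `U` with a fixed vector modulo `U` -/
theorem one_le_of_fix_mod (D : Dat16 ι lam y ζ) [DecidableEq k] [CharP F 2] {V : Type v} [AddCommGroup V] [Module k V]
    [FiniteDimensional k V] (ρ : Representation k (SpecialLinearGroup (Fin 2) F) V)
    (hfix : ∀ v, (∀ g, ρ g v = v) → v = 0) (U : Submodule k V) (hU : ∀ g, ∀ x ∈ U, ρ g x ∈ U) {t : V} (htU : t ∉ U)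
    (hyt : ρ y t = t) (hg : ∀ g, ρ g t - t ∈ U) {n : ℕ → ℕ} (hn : IsMult ι (subRep ρ U hU) n) :
    1 ≤ n 1 + n 2 + n 4 + n 8 := by
  set T := U ⊔ Submodule.span k {t} with hTdef
  have htT : t ∈ T := Submodule.mem_sup_right (Submodule.mem_span_singleton_self t)
  have hUT : U ≤ T := le_sup_left
  have hT : ∀ g, ∀ x ∈ T, ρ g x ∈ T := by
    intro g x hx
    obtain ⟨u, hu, z, hz, rfl⟩ := Submodule.mem_sup.1 hx
    obtain ⟨c, rfl⟩ := Submodule.mem_span_singleton.1 hz
    rw [map_add, map_smul]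
    refine T.add_mem (hUT (hU g u hu)) (T.smul_mem c ?_)
    have h1 := T.add_mem (hUT (hg g)) htT
    rwa [sub_add_cancel] at h1
  let U' : Submodule k T := U.comap T.subtype
  have hU' : ∀ g, ∀ x ∈ U', subRep ρ T hT g x ∈ U' := fun g x hx => hU g _ hx
  obtain ⟨n₁, n₂, h1, h2, h3⟩ := exists_isMult_sub ι D.card ι.injective (subRep ρ T hT) U' hU'
  -- the quotient has dimension at most one
  have hdim : finrank k (T ⧸ U') ≤ 1 := by
    refine finrank_le_one (U'.mkQ ⟨t, htT⟩) fun x => ?_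
    obtain ⟨⟨x, hx⟩, rfl⟩ := U'.mkQ_surjective x
    obtain ⟨u, hu, z, hz, rfl⟩ := Submodule.mem_sup.1 hx
    obtain ⟨c, rfl⟩ := Submodule.mem_span_singleton.1 hz
    refine ⟨c, ?_⟩
    rw [← map_smul, ← sub_eq_zero, ← map_sub, Submodule.mkQ_apply, Submodule.Quotient.mk_eq_zero]
    show c • t - (u + c • t) ∈ U
    have e : c • t - (u + c • t) = -u := by abel
    rw [e]
    exact U.neg_mem hu
  have hn2 : n₂ 1 = 0 ∧ n₂ 2 = 0 ∧ n₂ 4 = 0 ∧ n₂ 8 = 0 := by
    rw [h2.dim] at hdim
    have hz : ∀ b < 16, 2 ≤ (Bn b).card → n₂ b = 0 := by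
      intro b hb hc
      have h4 := Finset.single_le_sum (f := fun b => n₂ b * (Bn b).card) (fun _ _ => Nat.zero_le _)
        (Finset.mem_range.2 hb)
      have h5 : n₂ b * 2 ≤ n₂ b * (Bn b).card := Nat.mul_le_mul_left _ hc
      have h6 := h4.trans hdim
      omega
    exact ⟨hz 1 (by norm_num) (by decide), hz 2 (by norm_num) (by decide), hz 4 (by norm_num) (by decide),
      hz 8 (by norm_num) (by decide)⟩
  -- `U'` is `U`
  let φ : U' ≃ₗ[k] U := Submodule.comapSubtypeEquivOfLe hUT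
  have h1' : IsMult ι (subRep ρ U hU) n₁ := h1.of_iso ι φ fun g x => rfl
  have huq := (isMult_spec D h1').uniq (isMult_spec D hn)
  -- the pressure of `T`
  have h4 := h3.pressure
  have h5 : fx (subRep ρ T hT) = ⊥ := by
    rw [eq_bot_iff]
    intro x hx
    refine (Submodule.mem_bot k).2 (Subtype.ext (hfix x fun g => ?_))
    exact congrArg Subtype.val (hx g)
  rw [h5, finrank_bot] at h4
  have h6 := (isMult_spec D h3).zero
  have hpos : 0 < finrank k (eig (subRep ρ T hT) y 1) := by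
    have : Nontrivial (eig (subRep ρ T hT) y 1) := ⟨⟨⟨t, htT⟩, by
      rw [mem_eig, one_smul]
      exact Subtype.ext hyt⟩, 0, fun h => htU (by
        have h7 : t = 0 := congrArg Subtype.val (congrArg Subtype.val h)
        rw [h7]
        exact U.zero_mem)⟩
    exact finrank_pos (R := k) (M := eig (subRep ρ T hT) y 1)
  simp only [Pi.add_apply] at h4 h6
  have u1 := huq 1 (by norm_num)
  have u2 := huq 2 (by norm_num)
  have u4 := huq 4 (by norm_num)
  have u8 := huq 8 (by norm_num)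
  omega

/-- **The strict pressure inequality.** -/
theorem fix_of_pressure (D : Dat16 ι lam y ζ) {V : Type v} [AddCommGroup V] [Module k V] [FiniteDimensional k V]
    (ρ : Representation k (SpecialLinearGroup (Fin 2) F) V) (B : V →ₗ[k] V →ₗ[k] k)
    (hB : ∀ x, (∀ z, B x z = 0) → x = 0) (hinv : ∀ g x z, B (ρ g x) (ρ g z) = B x z) {m : ℕ → ℕ}
    (hm : SpecM16 ι ρ lam y ζ m) (h0 : 0 < m 0) (hp : m 1 + m 2 + m 4 + m 8 ≤ m 0) :
    ∃ v, v ≠ 0 ∧ ∀ g, ρ g v = v := by
  classical
  have := charF ι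
  by_contra hcon
  push Not at hcon
  have hfix : ∀ v, (∀ g, ρ g v = v) → v = 0 := by
    intro v hv
    by_contra h1
    obtain ⟨g, hg⟩ := hcon v h1
    exact hg (hv g)
  have hm0 := hm.zero
  have h0' : eig ρ y 1 ≠ ⊥ := by
    intro h
    rw [h, finrank_bot] at hm0
    omega
  obtain ⟨U, hU, t, hUy, htU, hyt, hg⟩ := exists_fix_mod D ρ h0'
  obtain ⟨n, hn⟩ := exists_isMult ι D.card ι.injective (subRep ρ U hU)
  have hn1 := one_le_of_fix_mod D ρ hfix U hU htU hyt hg hn
  have hnS := isMult_spec D hn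
  have hn0 : n 0 = 0 := by
    rw [hnS.zero]
    have h1 : eig (subRep ρ U hU) y 1 = ⊥ := by
      rw [eq_bot_iff]
      intro x hx
      rw [mem_eig, one_smul] at hx
      exact (Submodule.mem_bot k).2 (Subtype.ext (hUy x x.2 (congrArg Subtype.val hx)))
    rw [h1, finrank_bot]
  -- the orthogonal complement
  have hinv' : ∀ g x z, B (ρ g x) z = B x (ρ g⁻¹ z) := by
    intro g x z
    have h1 : ρ g (ρ g⁻¹ z) = z := by
      rw [← Module.End.mul_apply, ← map_mul, mul_inv_cancel, map_one]; rfl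
    conv_lhs => rw [← h1]
    rw [hinv]
  have hK : ∀ g, ∀ x ∈ LinearMap.ker (Phi B U), ρ g x ∈ LinearMap.ker (Phi B U) := by
    intro g x hx
    rw [LinearMap.mem_ker] at hx ⊢
    ext u
    rw [Phi_apply, hinv']
    exact LinearMap.congr_fun hx ⟨ρ g⁻¹ u, hU _ _ u.2⟩
  obtain ⟨nK, nQ, hK1, hQ1, hV1⟩ := exists_isMult_sub ι D.card ι.injective ρ _ hK
  let ψ : (V ⧸ LinearMap.ker (Phi B U)) ≃ₗ[k] Module.Dual k U :=
    (Phi B U).quotKerEquivOfSurjective (Phi_surjective B hB U)
  have hψ : ∀ g x, ψ (quotRep ρ _ hK g x) = (subRep ρ U hU).dual g (ψ x) := by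
    intro g x
    obtain ⟨x, rfl⟩ := (LinearMap.ker (Phi B U)).mkQ_surjective x
    rw [quotRep_mk]
    ext u
    show B (ρ g x) u = B x (ρ g⁻¹ u)
    rw [hinv']
  have hdual : ∀ g μ, μ ≠ 0 → finrank k (eig (quotRep ρ _ hK) g μ) = finrank k (eig (subRep ρ U hU) g μ⁻¹) := by
    intro g μ hμ
    rw [finrank_eig_iso _ _ ψ hψ, finrank_eig_dual _ g hμ]
  have hQS := isMult_spec D hQ1
  have hmod : ∀ {ξ : k} {N : ℕ} (_ : IsPrimitiveRoot ξ N) (_ : 0 < N) (j : ℕ), j < N →
      (ξ ^ j)⁻¹ = ξ ^ ((N - j) % N) := by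
    intro ξ N hξ hN j hj
    symm
    apply eq_inv_of_mul_eq_one_left
    rcases Nat.eq_zero_or_pos j with rfl | hj0
    · rw [Nat.sub_zero, Nat.mod_self, pow_zero, mul_one]
    · rw [Nat.mod_eq_of_lt (by omega), ← pow_add, Nat.sub_add_cancel hj.le, hξ.pow_eq_one]
  have hnQ : ∀ b < 16, nQ b = n b := by
    refine L16.uniq nQ n (fun j hj => ?_) fun j hj => ?_
    · rw [← hQS.1 j hj]
      unfold e17
      rw [hdual _ _ (pow_ne_zero _ (D.prim.ne_zero (by norm_num))), hmod D.prim (by norm_num) j hj]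
      have h1 := hnS.1 ((17 - j) % 17) (Nat.mod_lt _ (by norm_num))
      unfold e17 at h1
      rw [h1]
      refine Finset.sum_congr rfl fun b hb => ?_
      rw [w17_neg b (Finset.mem_range.1 hb) j hj]
    · rw [← hQS.2 j hj]
      unfold e15
      rw [hdual _ _ (pow_ne_zero _ ((prim_lam D).ne_zero (by norm_num))), hmod (prim_lam D) (by norm_num) j hj]
      have h1 := hnS.2 ((15 - j) % 15) (Nat.mod_lt _ (by norm_num))
      unfold e15 at h1
      rw [h1]
      refine Finset.sum_congr rfl fun b hb => ?_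
      rw [w15_neg b (Finset.mem_range.1 hb) j hj]
  -- the pressure of the complement
  have h4 := hK1.pressure
  have h5 : fx (subRep ρ _ hK) = ⊥ := by
    rw [eq_bot_iff]
    intro x hx
    refine (Submodule.mem_bot k).2 (Subtype.ext (hfix x fun g => ?_))
    exact congrArg Subtype.val (hx g)
  rw [h5, finrank_bot] at h4
  have hu := hm.uniq (isMult_spec D hV1)
  have u0 := hu 0 (by norm_num)
  have u1 := hu 1 (by norm_num)
  have u2 := hu 2 (by norm_num)
  have u4 := hu 4 (by norm_num)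
  have u8 := hu 8 (by norm_num)
  simp only [Pi.add_apply] at u0 u1 u2 u4 u8
  have q0 := hnQ 0 (by norm_num)
  have q1 := hnQ 1 (by norm_num)
  have q2 := hnQ 2 (by norm_num)
  have q4 := hnQ 4 (by norm_num)
  have q8 := hnQ 8 (by norm_num)
  omega

end Main

end Cfsg.Agent.H179.L16
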