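import Cfsg.Agent.H179.SLD.Mult
import Cfsg.Agent.H179.L16.Tab
import Cfsg.Agent.H179.SLC.Iface

/-!
# S5916: the multiplicities of the composition factors of a module of `SL₂(16)` in characteristic 2 (helper179)

* `Dat16`, `e17`, `e15`, `SpecM16` : the language (as in S5915);
* `isMult_spec` : a multiplicity function in the sense of `SLD.IsMult` satisfies `SpecM16`;
* `SpecM16.uniq` : the multiplicities are determined.
-/

set_option autoImplicit false
set_option linter.unusedSectionVars false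

namespace Cfsg.Agent.H179.L16

open Matrix Cfsg.Agent.H943.SL2Rel Cfsg.Agent.H943.RepAdd Cfsg.Agent.H943.SL2Mod
open Cfsg.Agent.H939.L64 (subm fixS)
open Cfsg.Agent.H179.SLC (oc isSS_h isSS_of_trace card_filter_range hs_one)
open Cfsg.Agent.H179.SLD (Bn mf IsMult exists_isMult)

/-- the data: a generator `lam` of the split torus, `y` of order 17 with the eigenvalues `ζ, ζ⁻¹` -/
structure Dat16 {k F : Type*} [Field k] [Field F] [Fintype F] (ι : F →+* k) (lam : Fˣ)
    (y : SpecialLinearGroup (Fin 2) F) (ζ : k) : Prop where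
  card : Fintype.card F = 16
  gen : ∀ x, x ∈ Subgroup.zpowers lam
  prim : IsPrimitiveRoot ζ 17
  tr : ι (y.1 0 0 + y.1 1 1) = ζ + ζ⁻¹

/-- the multiplicities of the eigenvalues of `y` of order 17 -/
noncomputable def e17 {k F V : Type*} [Field k] [Field F] [AddCommGroup V] [Module k V]
    (ρ : Representation k (SpecialLinearGroup (Fin 2) F) V) (y : SpecialLinearGroup (Fin 2) F) (ζ : k) (j : ℕ) : ℕ :=
  Module.finrank k (eig ρ y (ζ ^ j))

/-- the multiplicities of the eigenvalues of `h lam` -/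
noncomputable def e15 {k F V : Type*} [Field k] [Field F] [AddCommGroup V] [Module k V] (ι : F →+* k)
    (ρ : Representation k (SpecialLinearGroup (Fin 2) F) V) (lam : Fˣ) (j : ℕ) : ℕ :=
  Module.finrank k (eig ρ (h lam) (ι lam ^ j))

/-- `m b` : the multiplicity of `V_b` as a composition factor (in the Grothendieck group) -/
def SpecM16 {k F V : Type*} [Field k] [Field F] [AddCommGroup V] [Module k V] (ι : F →+* k)
    (ρ : Representation k (SpecialLinearGroup (Fin 2) F) V) (lam : Fˣ) (y : SpecialLinearGroup (Fin 2) F) (ζ : k)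
    (m : ℕ → ℕ) : Prop :=
  (∀ j < 17, e17 ρ y ζ j = ∑ b ∈ Finset.range 16, m b * w17 b j) ∧
    ∀ j < 15, e15 ι ρ lam j = ∑ b ∈ Finset.range 16, m b * w15 b j

theorem oc_land : ∀ b < 16, ∀ m < 16, oc 4 b m = ((m &&& b) == m) := by decide +kernel

theorem length_subm {b : ℕ} (hb : b < 16) (p : ℕ → Bool) :
    ((subm b).filter p).length = ((Bn b).filter fun m => p m = true).card := by
  unfold subm Bn
  rw [List.filter_filter, Finset.filter_filter, ← card_filter_range]
  congr 1
  refine Finset.filter_congr fun m hm => ?_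
  have hm' := Finset.mem_range.1 hm
  rw [oc_land b hb m (by omega)]
  simp [and_comm]

section Weights

variable {k : Type*} [Field k] [DecidableEq k]

theorem mf_eq {ζ : k} {N : ℕ} (hN : 2 ≤ N) (hζ : IsPrimitiveRoot ζ N) {b j : ℕ} (hb : b < 16) (hj : j < N) :
    mf b ζ (ζ ^ j) = ((subm b).filter fun m => (2 * m + (N - 1) * b) % N == j).length := by
  rw [length_subm hb]
  unfold mf
  congr 1
  refine Finset.filter_congr fun m hm => ?_
  have hmb : m ≤ b := by
    have := Finset.mem_range.1 (Finset.mem_filter.1 hm).1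
    omega
  have h1 : ζ ^ m * ζ⁻¹ ^ (b - m) = ζ ^ ((2 * m + (N - 1) * b) % N) := by
    have h2 : ζ⁻¹ = ζ ^ (N - 1) := by
      symm
      apply eq_inv_of_mul_eq_one_left
      rw [← pow_succ, Nat.sub_add_cancel (by omega), hζ.pow_eq_one]
    have hmod : ∀ x : ℕ, ζ ^ x = ζ ^ (x % N) := by
      intro x
      conv_lhs => rw [← Nat.div_add_mod x N, pow_add, pow_mul, hζ.pow_eq_one, one_pow, one_mul]
    rw [h2, ← pow_mul, ← pow_add, hmod]
    congr 1
    obtain ⟨i, rfl⟩ := Nat.exists_eq_add_of_le hmb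
    obtain ⟨M, rfl⟩ := Nat.exists_eq_add_of_le hN
    rw [Nat.add_sub_cancel_left]
    have h3 : 2 * m + (2 + M - 1) * (m + i) = (m + (2 + M - 1) * i) + (2 + M) * m := by
      have h4 : 2 + M - 1 = M + 1 := by omega
      rw [h4]
      ring
    rw [h3, Nat.add_mul_mod_self_left]
  rw [h1]
  simp only [beq_iff_eq]
  constructor
  · intro h
    exact hζ.pow_inj (Nat.mod_lt _ (by omega)) hj h
  · intro h
    rw [h]

end Weights

section Main

variable {k : Type*} [Field k] [CharP k 2] {F : Type*} [Field F] [Fintype F] [DecidableEq F] {ι : F →+* k}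
  {lam : Fˣ} {y : SpecialLinearGroup (Fin 2) F} {ζ : k}

theorem isSS_y (D : Dat16 ι lam y ζ) : SLC.IsSS ι y ζ := by
  refine isSS_of_trace ι (D.prim.ne_zero (by norm_num)) D.tr fun h => ?_
  have h0 := D.prim.ne_zero (by norm_num)
  have h1 : ζ ^ 2 = 1 := by
    rw [sq]
    nth_rw 2 [h]
    exact mul_inv_cancel₀ h0
  have h2 := D.prim.dvd_of_pow_eq_one 2 h1
  omega

theorem prim_lam (D : Dat16 ι lam y ζ) : IsPrimitiveRoot (ι lam) 15 := by
  classical
  have h := primitive ι ι.injective D.gen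
  rwa [D.card] at h

theorem y_pow (D : Dat16 ι lam y ζ) : y ^ 17 = 1 := by
  classical
  have := SLC.charF ι
  exact SLC.pow_eq_one_of_isSS ι ι.injective (isSS_y D) D.prim.pow_eq_one

theorem lam_pow (D : Dat16 ι lam y ζ) : (h lam) ^ 15 = 1 := by
  classical
  have := SLC.charF ι
  exact SLC.pow_eq_one_of_isSS ι ι.injective (isSS_h ι lam) (prim_lam D).pow_eq_one

theorem isMult_spec [CharP F 2] (D : Dat16 ι lam y ζ) [DecidableEq k] {V : Type*} [AddCommGroup V] [Module k V]
    {ρ : Representation k (SpecialLinearGroup (Fin 2) F) V} {n : ℕ → ℕ} (h : IsMult ι ρ n) : SpecM16 ι ρ lam y ζ n := by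
  constructor
  · intro j hj
    unfold e17
    rw [h.eigen y ζ 17 (isSS_y D) D.prim.pow_eq_one (by
      rw [Ne, CharP.cast_eq_zero_iff k 2]; norm_num) (ζ ^ j) (by
      rw [← pow_mul, mul_comm, pow_mul, D.prim.pow_eq_one, one_pow])]
    refine Finset.sum_congr rfl fun b hb => ?_
    rw [mf_eq (by norm_num) D.prim (Finset.mem_range.1 hb) hj]
    rfl
  · intro j hj
    have hl := prim_lam D
    unfold e15
    rw [h.eigen (Cfsg.Agent.H943.SL2Rel.h lam) (ι lam) 15 (isSS_h ι lam) hl.pow_eq_one (by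
      rw [Ne, CharP.cast_eq_zero_iff k 2]; norm_num) (ι lam ^ j) (by
      rw [← pow_mul, mul_comm, pow_mul, hl.pow_eq_one, one_pow])]
    refine Finset.sum_congr rfl fun b hb => ?_
    rw [mf_eq (by norm_num) hl (Finset.mem_range.1 hb) hj]
    rfl

/-- the multiplicities are determined -/
theorem SpecM16.uniq {V : Type*} [AddCommGroup V] [Module k V]
    {ρ : Representation k (SpecialLinearGroup (Fin 2) F) V} {m n : ℕ → ℕ} (hm : SpecM16 ι ρ lam y ζ m)
    (hn : SpecM16 ι ρ lam y ζ n) : ∀ b < 16, m b = n b :=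
  L16.uniq m n (fun j hj => (hm.1 j hj).symm.trans (hn.1 j hj)) fun j hj => (hm.2 j hj).symm.trans (hn.2 j hj)

/-- `m 0 = dim V ^ y` -/
theorem SpecM16.zero {V : Type*} [AddCommGroup V] [Module k V]
    {ρ : Representation k (SpecialLinearGroup (Fin 2) F) V} {m : ℕ → ℕ} (hm : SpecM16 ι ρ lam y ζ m) :
    m 0 = Module.finrank k (eig ρ y 1) := by
  have h1 := hm.1 0 (by norm_num)
  unfold e17 at h1
  rw [pow_zero] at h1
  rw [h1, Finset.sum_eq_single 0]
  · rw [w17_zero 0 (by norm_num), if_pos rfl, mul_one]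
  · intro b hb hb0
    rw [w17_zero b (Finset.mem_range.1 hb), if_neg hb0, mul_zero]
  · intro h0
    exact absurd (Finset.mem_range.2 (by norm_num)) h0

end Main

end Cfsg.Agent.H179.L16
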